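import Cfsg.Agent.H371.PU.Base
import Cfsg.Agent.H248.TwF4Dich
import Cfsg.Agent.KFacts.TwF4.AutNorm

/-!
# Subgroups between the root groups of `²F₄(q)` (helper424, for S5745, own characteristic)

`S : Full σ G`; `U = J 1 8`, `Bo = U T`, `N1 = N(J 2 8)`, `N2 = N(J 1 7)`.

* `bru` : Bruhat decomposition `g = b n b'`, `n` maps the root groups by `k ↦ c ± k`, `c` even;
* `maps_unique` : the permutation of the root groups is determined by `n`;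
* `arc_of_le` : `U ≤ M < G`, `X_i ≤ M` implies `i ∈ {0, …, 9}`.
-/

set_option autoImplicit false
set_option linter.unusedSectionVars false

namespace Cfsg.Agent.H424.EPX

open Cfsg.Agent.KFacts.TwF4 Cfsg.Agent.KFacts.TwF4.Full Cfsg.Agent.KFacts.TwF4.Arc
open Cfsg.Agent.KFacts.TwF4.Inv Cfsg.Agent.KFacts.TwF4.SylU
open Cfsg.Agent.SplitTwo Cfsg.Agent.SplitTwo.ZS Cfsg.Agent.TitsThree.RankTwoZ
open Cfsg.Agent.SplitTwo.RootSysZ Subgroup Cfsg Cfsg.Agent.H248.TwF4Over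

universe u

variable {F : Type*} [Field F] {σ : F →+* F} {G : Type u} [Group G] (S : Full σ G)

/-- even residue classes modulo 16 -/
def Ev (c : ZMod (2 * 8)) : Prop := c.val % 2 = 0

instance (c : ZMod (2 * 8)) : Decidable (Ev c) := inferInstanceAs (Decidable (c.val % 2 = 0))

theorem ev_two_mul (c : ℤ) : Ev ((2 * c : ℤ) : ZMod (2 * 8)) := by
  have h : ∀ d : ZMod (2 * 8), Ev (2 * d) := by decide
  have := h (c : ZMod (2 * 8))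
  push_cast
  exact this

/-- **Bruhat decomposition** -/
theorem bru (g : G) : ∃ b ∈ J S.XZ 1 8, ∃ n, (∃ c, Ev c ∧ (Maps S.R.X n (fun k => c + k) ∨ Maps S.R.X n (fun k => c - k))) ∧
    ∃ b' ∈ J S.XZ 1 8, g = b * n * b' := by
  obtain ⟨b, hb, t, ht, w, ⟨c, hc⟩, b', hb', rfl⟩ := S.bruhatE g
  refine ⟨b, hb, t * w, ⟨_, ev_two_mul c, ?_⟩, b', hb', by group⟩
  have key : ∀ f : ZMod (2 * 8) → ZMod (2 * 8), Maps S.R.X w f → Maps S.R.X (t * w) f := by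
    intro f hf
    exact (Maps.mul (S.T_iff.1 ht) hf).congr fun _ => rfl
  rcases hc with hc | hc
  · exact Or.inl (key _ hc)
  · exact Or.inr (key _ hc)

theorem exists_ne (k : ZMod (2 * 8)) : ∃ x ∈ S.R.X k, x ≠ 1 := by
  obtain ⟨x, hx, hx1⟩ := S.zsys8.exists_ne (k.val : ℤ)
  refine ⟨x, ?_, hx1⟩
  have hk : (((k.val : ℕ) : ℤ) : ZMod (2 * 8)) = k := by rw [Int.cast_natCast]; exact ZMod.natCast_zmod_val _
  have e : S.XZ (k.val : ℤ) = S.R.X k := by show S.R.X _ = _; rw [hk]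
  rwa [e] at hx

theorem maps_unique {n : G} {f g : ZMod (2 * 8) → ZMod (2 * 8)} (hf : Maps S.R.X n f) (hg : Maps S.R.X n g)
    (k : ZMod (2 * 8)) : f k = g k := by
  obtain ⟨x, hx, hx1⟩ := exists_ne S k
  by_contra hne
  have h1 := S.X_inf hne ((hf k x).2 hx) ((hg k x).2 hx)
  apply hx1
  have e : x = n⁻¹ * (n * x * n⁻¹) * n := by group
  rw [e, h1]
  group

theorem conj_le {M : Subgroup G} {m : G} (hm : m ∈ M) {f : ZMod (2 * 8) → ZMod (2 * 8)} (hf : Maps S.R.X m f)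
    {i : ZMod (2 * 8)} (hi : S.R.X i ≤ M) : S.R.X (f i) ≤ M := by
  intro x hx
  have h1 : m⁻¹ * x * m ∈ S.R.X i := by
    rw [← hf]
    have e : m * (m⁻¹ * x * m) * m⁻¹ = x := by group
    rwa [e]
  have h2 := mul_mem (mul_mem hm (hi h1)) (inv_mem hm)
  have e : m * (m⁻¹ * x * m) * m⁻¹ = x := by group
  rwa [e] at h2

theorem refl_mem {M : Subgroup G} {i : ZMod (2 * 8)} (h1 : S.R.X i ≤ M) (h2 : S.R.X (i + 8) ≤ M) :
    ∃ m ∈ M, Maps S.R.X m (fun k => 2 * i + 8 - k) := by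
  obtain ⟨x, hx, hx1⟩ := exists_ne S i
  have hi : (((i.val : ℕ) : ℤ) : ZMod (2 * 8)) = i := by rw [Int.cast_natCast]; exact ZMod.natCast_zmod_val _
  have e1 : S.XZ (i.val : ℤ) = S.R.X i := by show S.R.X _ = _; rw [hi]
  have e2 : S.XZ ((i.val : ℤ) - 8) = S.R.X (i + 8) := by
    show S.R.X _ = _
    rw [Int.cast_sub, hi]
    congr 1
    have : ∀ j : ZMod (2 * 8), j - ((8 : ℤ) : ZMod (2 * 8)) = j + 8 := by decide
    exact this i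
  obtain ⟨v, hv, v', hv', h3⟩ := S.zsys8.mu (i.val : ℤ) x (by rw [e1]; exact hx) hx1
  rw [e2] at hv hv'
  refine ⟨v * x * v', mul_mem (mul_mem (h2 hv) (h1 hx)) (h2 hv'), (maps_refl h3).congr fun k => ?_⟩
  rw [Int.cast_sub, Int.cast_mul, hi]
  have : ∀ j k : ZMod (2 * 8), ((2 : ℤ) : ZMod (2 * 8)) * j - ((8 : ℤ) : ZMod (2 * 8)) - k = 2 * j + 8 - k := by decide
  exact this i k

theorem X_le_U {i : ZMod (2 * 8)} (h1 : 1 ≤ i.val) (h2 : i.val ≤ 8) : S.R.X i ≤ J S.XZ 1 8 := by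
  have hi : (((i.val : ℕ) : ℤ) : ZMod (2 * 8)) = i := by rw [Int.cast_natCast]; exact ZMod.natCast_zmod_val _
  have e1 : S.XZ (i.val : ℤ) = S.R.X i := by show S.R.X _ = _; rw [hi]
  rw [← e1]
  exact X_le_J (by omega) (by omega)

theorem X_le_J' {a b : ℤ} {i : ZMod (2 * 8)} (k : ℤ) (hk : (k : ZMod (2 * 8)) = i) (h1 : a ≤ k) (h2 : k ≤ b) :
    S.R.X i ≤ J S.XZ a b := by
  have e1 : S.XZ k = S.R.X i := by show S.R.X _ = _; rw [hk]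
  rw [← e1]
  exact X_le_J h1 h2

theorem J_le' {a b : ℤ} {K : Subgroup G} (h : ∀ k : ℤ, a ≤ k → k ≤ b → S.R.X (k : ZMod (2 * 8)) ≤ K) :
    J S.XZ a b ≤ K := J_le h

/-- elements of an overgroup of `U` -/
theorem types' [Finite G] {M : Subgroup G} (hU : J S.XZ 1 8 ≤ M) (hM : M ≠ ⊤) {b b' n : G} (hb : b ∈ J S.XZ 1 8)
    (hb' : b' ∈ J S.XZ 1 8) (hn : ∃ c : ZMod (2 * 8), Maps S.R.X n (fun k => c + k) ∨ Maps S.R.X n (fun k => c - k))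
    (hg : b * n * b' ∈ M) : Maps S.R.X n (fun k => k) ∨
      (Maps S.R.X n (fun k => 10 - k) ∧ S.R.X 9 ≤ M) ∨ (Maps S.R.X n (fun k => 8 - k) ∧ S.R.X 0 ≤ M) := by
  rcases types (cond_top S) (M := M) (by rwa [inf_top_eq]) hb hb' hn hg with h | h | ⟨h, h'⟩ | ⟨h, h'⟩
  · exact absurd (top_le_iff.1 h) hM
  · exact Or.inl h
  · refine Or.inr (Or.inl ⟨h, ?_⟩)
    have : S.R.X 9 ⊓ ⊤ ≤ M := h'
    rwa [inf_top_eq] at this
  · refine Or.inr (Or.inr ⟨h, ?_⟩)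
    have : S.R.X 0 ⊓ ⊤ ≤ M := h'
    rwa [inf_top_eq] at this

theorem not_both [Finite G] {M : Subgroup G} (hU : J S.XZ 1 8 ≤ M) (hM : M ≠ ⊤) (h9 : S.R.X 9 ≤ M) (h0 : S.R.X 0 ≤ M) :
    False := by
  apply hM
  rw [← top_le_iff]
  refine le_of_both (cond_top S) (by rwa [inf_top_eq]) ?_ ?_
  · show S.R.X 9 ⊓ ⊤ ≤ M
    rwa [inf_top_eq]
  · show S.R.X 0 ⊓ ⊤ ≤ M
    rwa [inf_top_eq]

theorem n1_mem' [Finite G] {M : Subgroup G} (hU : J S.XZ 1 8 ≤ M) (h9 : S.R.X 9 ≤ M) : S.n1 ∈ M :=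
  n1_mem (cond_top S) (M := M) (by rwa [inf_top_eq]) (by show S.R.X 9 ⊓ ⊤ ≤ M; rwa [inf_top_eq])

theorem n2_mem' [Finite G] {M : Subgroup G} (hU : J S.XZ 1 8 ≤ M) (h0 : S.R.X 0 ≤ M) : S.n2 ∈ M :=
  n2_mem (cond_top S) (M := M) (by rwa [inf_top_eq]) (by show S.R.X 0 ⊓ ⊤ ≤ M; rwa [inf_top_eq])

/-- **the root groups of a proper overgroup of `U`** -/
theorem arc_of_le [Finite G] {M : Subgroup G} (hU : J S.XZ 1 8 ≤ M) (hM : M ≠ ⊤) {i : ZMod (2 * 8)}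
    (hi : S.R.X i ≤ M) : i.val ≤ 9 := by
  by_contra hcon
  have hc1 : ∀ i : ZMod (2 * 8), ¬ i.val ≤ 9 → 1 ≤ (i + 8).val ∧ (i + 8).val ≤ 8 ∧ i = (i + 8) + 8 ∧
      ¬ (∀ k : ZMod (2 * 8), 2 * (i + 8) + 8 - k = k) ∧ ¬ (∀ k : ZMod (2 * 8), 2 * (i + 8) + 8 - k = 10 - k) ∧
      ¬ (∀ k : ZMod (2 * 8), 2 * (i + 8) + 8 - k = 8 - k) := by decide
  obtain ⟨h1, h2, h3, h4, h5, h6⟩ := hc1 i hcon
  have h7 : S.R.X (i + 8) ≤ M := (X_le_U S h1 h2).trans hU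
  obtain ⟨m, hm, hmf⟩ := refl_mem S h7 (by rw [← h3]; exact hi)
  rcases types' S hU hM (b := 1) (b' := 1) (n := m) (one_mem _) (one_mem _) ⟨_, Or.inr hmf⟩ (by simpa using hm) with
    h | ⟨h, -⟩ | ⟨h, -⟩
  · exact h4 fun k => maps_unique S hmf h k
  · exact h5 fun k => maps_unique S hmf h k
  · exact h6 fun k => maps_unique S hmf h k

end Cfsg.Agent.H424.EPX
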