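import Cfsg.Agent.H470.EPO.OwnT
import Cfsg.Agent.H737.EPO.RelOne

/-!
# The `G`-side of the own characteristic case, over a parabolic system of the overgroup (helper424, S5745)

`S₀ : PSys Y p I₀` for the overgroup `Y` (`Y` simple, in `G` as a normal subgroup) instead of a root group datum.

* `CanV S₀` : canonical Borel–Tits; `canV_of_bt`, `canV_of_rad` : from Borel–Tits, and from the list of the radical
  subgroups;
* `not_V_le`, `exists_QQ'`, `exists_DQ'` : ports of helper470's `GSide`, `QQ`;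
* `dq_ps` : `EPS H N e ⊢ DQ H e' S J`, for every parabolic system `S` of `T`, `N ≅ T ^ k`.
-/

set_option autoImplicit false
set_option linter.unusedSectionVars false

namespace Cfsg.Agent.H424.EPX

open Cfsg.Agent.H284 Cfsg.Agent.H737.EPO Cfsg.Agent.H470.EPO Cfsg.Agent.H209.EPX Cfsg.Agent.H470.EPK

section PS

variable {Y : Type*} [Group Y] {p : ℕ} {I₀ : Type*} (S₀ : PSys Y p I₀)

/-- canonical Borel–Tits -/
def CanV : Prop := ∀ D : Subgroup Y, IsPGroup p D → D ≠ ⊥ → ∃ (J : Set I₀) (g : Y), J ≠ Set.univ ∧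
  D ≤ cj g (S₀.V J) ∧ ∀ φ : MulAut Y, (∀ d ∈ D, φ d ∈ D) → ∀ x ∈ cj g (S₀.V J), φ x ∈ cj g (S₀.V J)

theorem psV_ne_bot {J : Set I₀} (hJ : J ≠ Set.univ) : S₀.V J ≠ ⊥ := by
  intro h
  apply S₀.P_ne_top hJ
  rw [Subgroup.eq_top_iff']
  intro g
  obtain ⟨a, ha, b, hb, rfl⟩ := S₀.dec (J := J) (L := J) (g := g) (by rw [h]; exact bot_le)
  exact mul_mem ha hb

theorem cj_P_ne_top {J : Set I₀} (hJ : J ≠ Set.univ) (g : Y) : cj g (S₀.P J) ≠ ⊤ := by
  intro h1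
  apply S₀.P_ne_top hJ
  rw [← cj_inv_cj g (S₀.P J), h1]
  exact Subgroup.map_top_of_surjective _ (MulAut.conj g⁻¹).surjective

theorem cj_V_ne_bot {J : Set I₀} (hJ : J ≠ Set.univ) (g : Y) : cj g (S₀.V J) ≠ ⊥ := by
  intro h1
  apply psV_ne_bot S₀ hJ
  rw [← cj_inv_cj g (S₀.V J), h1]
  exact Subgroup.map_bot _

theorem P_le_norm {J : Set I₀} {g : Y} : cj g (S₀.P J) ≤ Subgroup.normalizer (cj g (S₀.V J) : Set Y) := by
  rintro _ ⟨a, ha, rfl⟩
  have h5 : cj a (S₀.V J) = S₀.V J := Cfsg.Agent.Nodes.Reps.mem_normalizer_iff_cj.1 (S₀.V_norm J ha)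
  rw [Cfsg.Agent.Nodes.Reps.mem_normalizer_iff_cj]
  show cj (g * a * g⁻¹) (cj g (S₀.V J)) = _
  rw [← cj_mul, inv_mul_cancel_right, cj_mul, h5]

/-- canonical Borel–Tits from Borel–Tits -/
theorem canV_of_bt [Finite Y] [Fact p.Prime]
    (hBT : ∀ Q : Subgroup Y, IsPGroup p Q → Q ≠ ⊥ → ∃ (g : Y) (J : Set I₀), J ≠ Set.univ ∧ Q ≤ cj g (S₀.V J) ∧
      Subgroup.normalizer (Q : Set Y) ≤ cj g (S₀.P J)) : CanV S₀ := by
  classical
  intro D hp h1
  obtain ⟨Q, ⟨hQ1, hQ2, hQ3⟩, hmax⟩ := Set.exists_max_image {Q : Subgroup Y | D ≤ Q ∧ IsPGroup p Q ∧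
      ∀ φ : MulAut Y, H459.Gallery.Iv φ D → H459.Gallery.Iv φ Q}
    (fun Q => Nat.card Q) (Set.toFinite _) ⟨D, le_rfl, hp, fun φ hφ => hφ⟩
  have hQne : Q ≠ ⊥ := fun h2 => h1 (le_bot_iff.1 (h2 ▸ hQ1))
  set N := Subgroup.normalizer (Q : Set Y) with hNd
  have hNφ : ∀ φ : MulAut Y, H459.Gallery.Iv φ D → H459.Gallery.Iv φ N := fun φ hφ =>
    H470.EPK.iv_normalizer (hQ3 φ hφ)
  have hQN : Q ≤ N := Subgroup.le_normalizer
  have hQO : Q ≤ (pCore p ↥N).map N.subtype :=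
    le_core hQN (fun g hg a ha => (Subgroup.mem_normalizer_iff.1 hg a).1 ha) hQ2
  have hOQ : (pCore p ↥N).map N.subtype = Q := by
    refine (Subgroup.eq_of_le_of_card_ge hQO (hmax _ ⟨hQ1.trans hQO,
      (Lib.Cores.pCore_isPGroup (G := N) p).map _, fun φ hφ => H459.RgdRad.iv_core (hNφ φ hφ)⟩)).symm
  obtain ⟨g, J, hJ, h3, h4⟩ := hBT Q hQ2 hQne
  set V := cj g (S₀.V J) with hV
  have hVp : IsPGroup p V := (S₀.V_p J).map _
  have hPV : cj g (S₀.P J) ≤ Subgroup.normalizer (V : Set Y) := P_le_norm S₀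
  have hVQ : V = Q := by
    by_contra hne
    have h5 := SmallSimple.SylowMaxInter.lt_inf_normalizer hVp (lt_of_le_of_ne h3 (Ne.symm hne))
    have h6 : V ⊓ N ≤ Q := by
      rw [← hOQ]
      refine le_core inf_le_right (fun k hk v hv => ⟨?_, N.mul_mem (N.mul_mem hk hv.2) (N.inv_mem hk)⟩)
        (hVp.to_le inf_le_left)
      exact (Subgroup.mem_normalizer_iff.1 (hPV (h4 hk)) v).1 hv.1
    exact lt_irrefl _ (lt_of_lt_of_le h5 h6)
  refine ⟨J, g, hJ, ?_, ?_⟩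
  · rw [← hV, hVQ]; exact hQ1
  · intro φ hφ
    rw [← hV, hVQ]; exact hQ3 φ hφ

/-- canonical Borel–Tits from the list of the radical `p`-subgroups -/
theorem canV_of_rad [Finite Y] [Fact p.Prime]
    (hrad : ∀ D : Subgroup Y, IsPGroup p D → D ≠ ⊥ → (∀ A : Subgroup Y, IsPGroup p A → D ≤ A →
      (∀ g ∈ Subgroup.normalizer (D : Set Y), ∀ a ∈ A, g * a * g⁻¹ ∈ A) →
      A ≤ Subgroup.normalizer (D : Set Y) → A = D) → ∃ (g : Y) (J : Set I₀), J ≠ Set.univ ∧ D = cj g (S₀.V J)) :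
    CanV S₀ := by
  classical
  intro D hp h1
  obtain ⟨Q, ⟨hQ1, hQ2, hQ3⟩, hmax⟩ := Set.exists_max_image {Q : Subgroup Y | D ≤ Q ∧ IsPGroup p Q ∧
      ∀ φ : MulAut Y, H459.Gallery.Iv φ D → H459.Gallery.Iv φ Q}
    (fun Q => Nat.card Q) (Set.toFinite _) ⟨D, le_rfl, hp, fun φ hφ => hφ⟩
  have hQne : Q ≠ ⊥ := fun h2 => h1 (le_bot_iff.1 (h2 ▸ hQ1))
  set N := Subgroup.normalizer (Q : Set Y) with hNd
  have hNφ : ∀ φ : MulAut Y, H459.Gallery.Iv φ D → H459.Gallery.Iv φ N := fun φ hφ =>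
    H470.EPK.iv_normalizer (hQ3 φ hφ)
  have hQN : Q ≤ N := Subgroup.le_normalizer
  have hQO : Q ≤ (pCore p ↥N).map N.subtype :=
    le_core hQN (fun g hg a ha => (Subgroup.mem_normalizer_iff.1 hg a).1 ha) hQ2
  have hOQ : (pCore p ↥N).map N.subtype = Q := by
    refine (Subgroup.eq_of_le_of_card_ge hQO (hmax _ ⟨hQ1.trans hQO,
      (Lib.Cores.pCore_isPGroup (G := N) p).map _, fun φ hφ => H459.RgdRad.iv_core (hNφ φ hφ)⟩)).symm
  obtain ⟨g, J, hJ, h3⟩ := hrad Q hQ2 hQne (fun A hA hQA hn hAN => by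
    have h4 : A ≤ (pCore p ↥N).map N.subtype := le_core hAN hn hA
    rw [hOQ] at h4
    exact le_antisymm h4 hQA)
  refine ⟨J, g, hJ, ?_, ?_⟩
  · rw [← h3]; exact hQ1
  · intro φ hφ
    rw [← h3]; exact hQ3 φ hφ

/-- a maximal core free subgroup `H` of a group `G` with normal subgroup `Y`: `H ∩ Y` does not contain `V_J^g` -/
theorem not_V_le [Finite Y] [Fact p.Prime] {G : Type*} [Group G] [Finite G] {j : Y →* G}
    (hj : Function.Injective j) (hn : j.range.Normal) {H : Subgroup G} (hmax : IsCoatom H)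
    (hcore : ¬ j.range ≤ H) (hOp : ∀ K ≤ H, (∀ g ∈ H, ∀ k ∈ K, g * k * g⁻¹ ∈ K) → IsPGroup p K → K = ⊥)
    {J : Set I₀} (hJ : J ≠ Set.univ) {g : Y} (hV : cj g (S₀.V J) ≤ H.comap j) : False := by
  classical
  set K := H.comap j with hK
  have hKtop : K ≠ ⊤ := by
    intro h1
    apply hcore
    rintro _ ⟨y, rfl⟩
    have : y ∈ K := by rw [h1]; exact Subgroup.mem_top _
    exact this
  obtain ⟨J', g', hJ', h2, h3⟩ := S₀.canon hKtop hJ hV
  set Q := cj g' (S₀.P J') with hQ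
  have hinv : ∀ a ∈ H, ∀ y ∈ K, ∀ φ : MulAut Y, (∀ y, j (φ y) = a * j y * a⁻¹) → φ y ∈ K := by
    intro a ha y hy φ hφ
    show j (φ y) ∈ H
    rw [hφ]
    exact mul_mem (mul_mem ha hy) (inv_mem ha)
  have hQH : ∀ a ∈ H, ∀ x ∈ Q, ∃ x' ∈ Q, a * j x * a⁻¹ = j x' := by
    intro a ha x hx
    obtain ⟨φ, hφ⟩ := exists_conj hj hn a
    exact ⟨φ x, h3 φ (fun y hy => hinv a ha y hy φ hφ) x hx, (hφ x).symm⟩
  -- the product
  let L : Subgroup G :=
    { carrier := {y | ∃ a ∈ H, ∃ x ∈ Q, y = a * j x}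
      one_mem' := ⟨1, one_mem _, 1, one_mem _, by rw [map_one, mul_one]⟩
      mul_mem' := by
        rintro _ _ ⟨a, ha, x, hx, rfl⟩ ⟨b, hb, y, hy, rfl⟩
        obtain ⟨x', hx', e⟩ := hQH b⁻¹ (inv_mem hb) x hx
        refine ⟨a * b, mul_mem ha hb, x' * y, mul_mem hx' hy, ?_⟩
        rw [map_mul, ← e]
        group
      inv_mem' := by
        rintro _ ⟨a, ha, x, hx, rfl⟩
        obtain ⟨x', hx', e⟩ := hQH a ha x⁻¹ (inv_mem hx)
        refine ⟨a⁻¹, inv_mem ha, x', hx', ?_⟩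
        rw [← e, map_inv]
        group }
  have hHL : H ≤ L := fun a ha => ⟨a, ha, 1, one_mem _, by rw [map_one, mul_one]⟩
  rcases hHL.lt_or_eq with h4 | h4
  · have h5 : L = ⊤ := hmax.2 L h4
    apply cj_P_ne_top S₀ hJ' g'
    rw [Subgroup.eq_top_iff']
    intro y
    have h6 : j y ∈ L := by rw [h5]; exact Subgroup.mem_top _
    obtain ⟨a, ha, x, hx, e⟩ := h6
    have h7 : y * x⁻¹ ∈ K := by
      show j (y * x⁻¹) ∈ H
      rw [map_mul, map_inv, e, mul_inv_cancel_right]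
      exact ha
    have h8 := mul_mem (h2 h7) hx
    rwa [inv_mul_cancel_right] at h8
  · have h5 : Q ≤ K := by
      intro x hx
      have h6 : j x ∈ L := ⟨1, one_mem _, x, hx, by rw [one_mul]⟩
      rw [← h4] at h6
      exact h6
    set V := cj g' (S₀.V J') with hVd
    have hVQ : V ≤ Q := Subgroup.map_mono (S₀.V_le J')
    have hVp : IsPGroup p V := (S₀.V_p J').map _
    have hVO : V ≤ (pCore p ↥K).map K.subtype := by
      refine le_core (hVQ.trans h5) (fun x hx v hv => ?_) hVp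
      have hxQ : x ∈ Q := h2 hx
      exact (Subgroup.mem_normalizer_iff.1 (P_le_norm S₀ hxQ) v).1 hv
    set O : Subgroup Y := (pCore p ↥K).map K.subtype with hO
    have hOp' : IsPGroup p O := (Lib.Cores.pCore_isPGroup (G := K) p).map _
    have hOK : O ≤ K := by
      rintro _ ⟨y, _, rfl⟩
      exact y.2
    have h6 := hOp (O.map j) (by
      rintro _ ⟨y, hy, rfl⟩
      exact hOK hy) (by
      rintro a ha _ ⟨y, hy, rfl⟩
      obtain ⟨φ, hφ⟩ := exists_conj hj hn a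
      rw [← hφ]
      exact ⟨φ y, H459.RgdRad.iv_core (fun z hz => hinv a ha z hz φ hφ) y hy, rfl⟩) (hOp'.map _)
    rw [Subgroup.map_eq_bot_iff_of_injective _ hj] at h6
    exact cj_V_ne_bot S₀ hJ' g' (le_bot_iff.1 (h6 ▸ hVO))

/-- the `p`-group `QQ` above `D` -/
theorem exists_QQ' [Finite Y] [Fact p.Prime] (hcan : CanV S₀) {G : Type*} [Group G] [Finite G] {j : Y →* G}
    (hj : Function.Injective j) (hn : j.range.Normal) {H : Subgroup G} (hmax : IsCoatom H)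
    (hcore : ¬ j.range ≤ H) (hOp : ∀ K ≤ H, (∀ g ∈ H, ∀ k ∈ K, g * k * g⁻¹ ∈ K) → IsPGroup p K → K = ⊥)
    {D P : Subgroup G} (hDj : D ≤ j.range) (hDp : IsPGroup p D) (hD1 : D ≠ ⊥) (hDH : D ≤ H)
    (hPH : P ≤ H) (hDn : ∀ g ∈ P, ∀ d ∈ D, g * d * g⁻¹ ∈ D)
    (hDmax : ∀ S : Subgroup G, IsPGroup p S → S ≤ H → S ≤ j.range → (∀ g ∈ P, ∀ s ∈ S, g * s * g⁻¹ ∈ S) → S ≤ D) :
    ∃ Q : Subgroup G, IsPGroup p Q ∧ Q ≤ j.range ∧ (∀ g ∈ P, ∀ w ∈ Q, g * w * g⁻¹ ∈ Q) ∧ D ≤ Q ∧ Q ⊓ H = D ∧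
      Q ≠ D := by
  classical
  have hD' : D = (D.comap j).map j := by
    rw [Subgroup.map_comap_eq, inf_eq_right.2 hDj]
  have hD1' : D.comap j ≠ ⊥ := fun h1 => hD1 (by rw [hD', h1, Subgroup.map_bot])
  have hDp' : IsPGroup p (D.comap j) := hDp.comap_of_injective j hj
  obtain ⟨J, g, hJ, h1, h2⟩ := hcan _ hDp' hD1'
  set V := cj g (S₀.V J) with hV
  have hVp : IsPGroup p V := (S₀.V_p J).map _
  have hDV : D ≤ V.map j := by
    rw [hD']
    exact Subgroup.map_mono h1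
  have hn' : ∀ g ∈ P, ∀ w ∈ V.map j, g * w * g⁻¹ ∈ V.map j := by
    rintro a ha _ ⟨y, hy, rfl⟩
    obtain ⟨φ, hφ⟩ := exists_conj hj hn a
    rw [← hφ]
    refine ⟨φ y, h2 φ (fun z hz => ?_) y hy, rfl⟩
    show j (φ z) ∈ D
    rw [hφ]
    exact hDn a ha _ hz
  refine ⟨V.map j, hVp.map _, ?_, hn', hDV, ?_, ?_⟩
  · rintro _ ⟨y, _, rfl⟩
    exact ⟨y, rfl⟩
  · apply le_antisymm
    · refine hDmax _ ((hVp.map j).to_le inf_le_left) inf_le_right ?_ ?_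
      · rintro _ ⟨⟨y, _, rfl⟩, _⟩
        exact ⟨y, rfl⟩
      · rintro a ha w ⟨hw1, hw2⟩
        exact ⟨hn' a ha w hw1, H.mul_mem (H.mul_mem (hPH ha) hw2) (H.inv_mem (hPH ha))⟩
    · exact le_inf hDV hDH
  · intro h3
    refine not_V_le S₀ hj hn hmax hcore hOp hJ (g := g) ?_
    intro v hv
    have h4 : j v ∈ V.map j := ⟨v, hv, rfl⟩
    rw [h3] at h4
    exact hDH h4

/-- `D = O_p(P ∩ Y)`, `P = PH H e S J` -/
theorem exists_DQ' [Finite Y] [Fact p.Prime] (hcan : CanV S₀) {G : Type*} [Group G] [Finite G] {j : Y →* G}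
    (hj : Function.Injective j) (hn : j.range.Normal) {H : Subgroup G} (hmax : IsCoatom H)
    (hcore : ¬ j.range ≤ H) (hOp : ∀ K ≤ H, (∀ g ∈ H, ∀ k ∈ K, g * k * g⁻¹ ∈ K) → IsPGroup p K → K = ⊥)
    {N : Subgroup G} {Z I' : Type*} [Group Z] [Finite Z] {k : ℕ} (e : N ≃* (Fin k → Z)) (S : PSys Z p I')
    (hNH : N ≤ H) (hNn : ∀ g ∈ H, ∀ n ∈ N, g * n * g⁻¹ ∈ N) (hNj : N ≤ j.range)
    (J : Fin k → Set I') (hV : VV e S J ≠ ⊥) :
    ∃ D Q : Subgroup G, VV e S J ≤ D ∧ D ≤ PH H e S J ∧ D ≤ j.range ∧ IsPGroup p D ∧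
      (∀ g ∈ PH H e S J, ∀ d ∈ D, g * d * g⁻¹ ∈ D) ∧ IsPGroup p Q ∧
      (∀ g ∈ PH H e S J, ∀ w ∈ Q, g * w * g⁻¹ ∈ Q) ∧ D ≤ Q ∧ Q ⊓ H = D ∧ Q ≠ D := by
  classical
  have hPP : PP e S J ≤ PH H e S J := PP_le_PH e S hNH J
  set P := PH H e S J with hP
  set P₁ : Subgroup G := P ⊓ j.range with hP₁
  have hP₁n : ∀ g ∈ P, ∀ x ∈ P₁, g * x * g⁻¹ ∈ P₁ := fun g hg x hx =>
    ⟨P.mul_mem (P.mul_mem hg hx.1) (P.inv_mem hg), hn.conj_mem x hx.2 g⟩
  set D : Subgroup G := (pCore p ↥P₁).map P₁.subtype with hD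
  have hDP₁ : D ≤ P₁ := by
    rintro _ ⟨y, _, rfl⟩
    exact y.2
  have hDp : IsPGroup p D := (Lib.Cores.pCore_isPGroup (G := P₁) p).map _
  have hDn : ∀ g ∈ P, ∀ d ∈ D, g * d * g⁻¹ ∈ D := fun g hg d hd =>
    H459.RgdRad.iv_core (x := MulAut.conj g) (N := P₁) (fun x hx => hP₁n g hg x hx) d hd
  have hVD : VV e S J ≤ D := by
    refine le_core (N := P₁) (le_inf ((VV_le_PP e S J).trans hPP) ((VV_le e S J).trans hNj))
      (fun g hg a ha => PH_nm_VV e S hg.1 ha) (VV_isPGroup e S J)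
  have hD1 : D ≠ ⊥ := fun h1 => hV (le_bot_iff.1 (h1 ▸ hVD))
  obtain ⟨Q, h1, -, h2, h3, h4, h5⟩ := exists_QQ' S₀ hcan hj hn hmax hcore hOp (D := D)
    (P := P) (hDP₁.trans inf_le_right) hDp hD1 (hDP₁.trans (inf_le_left.trans inf_le_left)) inf_le_left
    hDn (fun E hE hEH hEj hEn => by
      -- `E ∩ N ≤ V_J`
      have hEN : E ⊓ N ≤ VV e S J := by
        have hEn' : ∀ g ∈ P, ∀ d ∈ E ⊓ N, g * d * g⁻¹ ∈ E ⊓ N := fun g hg d hd =>
          ⟨hEn g hg d hd.1, hNn g (inf_le_left (a := H) hg) d hd.2⟩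
        have hUD : VV e S (fun _ => ∅) ≤ Subgroup.normalizer ((E ⊓ N : Subgroup G) : Set G) := by
          intro u hu
          have huP : u ∈ P := hPP (VV_le_PP' e S _ J hu)
          rw [Cfsg.Agent.Nodes.Reps.mem_normalizer_iff_cj]
          apply Subgroup.eq_of_le_of_card_ge
          · rintro _ ⟨d, hd, rfl⟩
            exact hEn' u huP d hd
          · exact (H284.card_cj u (E ⊓ N)).ge
        have h6 : IsPGroup p (VV e S (fun _ => ∅) ⊔ (E ⊓ N) : Subgroup G) :=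
          (VV_isPGroup e S _).to_sup_of_normal_right' (hE.to_le inf_le_left) hUD
        have h7 := UU_max e S (sup_le (VV_le e S _) inf_le_right) h6 le_sup_left
        have h8 : E ⊓ N ≤ VV e S (fun _ => ∅) := by rw [← h7]; exact le_sup_right
        exact VV_max e S (h8.trans (VV_le_PP' e S _ J)) (hE.to_le inf_le_left) fun g hg d hd => hEn' g (hPP hg) d hd
      -- `E ≤ P`
      have hEP : E ≤ P := by
        intro s hs
        have hsH := hEH hs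
        refine (mem_PH e S).2 ⟨hsH, ?_⟩
        apply Subgroup.eq_of_le_of_card_ge
        · rintro _ ⟨u, hu, rfl⟩
          have hu' := hPP hu
          have huN := PP_le e S J hu
          have h6 : s * (u * s⁻¹ * u⁻¹) ∈ E ⊓ N := by
            refine ⟨E.mul_mem hs (hEn u hu' _ (E.inv_mem hs)), ?_⟩
            have e1 : s * (u * s⁻¹ * u⁻¹) = s * u * s⁻¹ * u⁻¹ := by group
            rw [e1]
            exact N.mul_mem (hNn s hsH u huN) (N.inv_mem huN)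
          have h7 := (PP e S J).mul_mem (VV_le_PP e S J (hEN h6)) hu
          have e2 : s * (u * s⁻¹ * u⁻¹) * u = s * u * s⁻¹ := by group
          rw [e2] at h7
          exact h7
        · exact (H284.card_cj s _).ge
      exact le_core (N := P₁) (le_inf hEP hEj) (fun g hg a ha => hEn g hg.1 a ha) hE)
  exact ⟨D, Q, hVD, hDP₁.trans inf_le_left, hDP₁.trans inf_le_right, hDp, hDn, h1, h2, h3, h4, h5⟩

/-- **the `G`-side over a parabolic system** -/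
theorem dq_ps [Finite Y] [Fact p.Prime] (hcan : CanV S₀) {G : Type*} [Group G] [Finite G] {H N : Subgroup G}
    {T : Type} [Group T] [Finite T] {k : ℕ} {e : N ≃* (Fin k → T)} (h : EPS H N e)
    {j : Y →* G} (hj : Function.Injective j) (hn : j.range.Normal) (hNj : N ≤ j.range) {I : Type*} (S : PSys T p I)
    (e' : N ≃* (Fin k → T)) (J : Fin k → Set I) (hJ : VV e' S J ≠ ⊥) : DQ H e' S J := by
  obtain ⟨D, Q, h1, h2, h3, h4, h5, h6, h7, h8, h9, h10⟩ := exists_DQ' S₀ hcan hj hn h.ep.max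
    (eps_core h hn hNj) (fun K hK hKn hKp => eps_Op h hK hKn hKp) e' S h.le h.nrm hNj J hJ
  exact ⟨D, Q, h1, h2, h4, h5, h6, h7, h8, h9, h10⟩

end PS

end Cfsg.Agent.H424.EPX
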