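import Cfsg.Agent.H424.EPX.GPsys
import Cfsg.Agent.H424.EPX.TF4
import Cfsg.Agent.H564.EPF.Own
import Cfsg.Agent.H542.EPX.OwnGlue
import Cfsg.Agent.H470.EPO.OwnR1

/-!
# S5745, own characteristic, `G = ²F₄(q)` (helper424; Borel–Tits by helper564)

`HasCan p G` : `G` has, up to isomorphism, a parabolic system with canonical Borel–Tits.

* `hasCan_TF4` : `G = ²F₄(q)`, `q ≥ 8`;
* `HasCan.dq` : the `G`-side, `EPS H N e ⊢ DQ H e' S J`;
* `HasCan.own_ps`, `HasCan.own_filtC`, `HasCan.own_TF4`, `HasCan.own_r1` : socles with a parabolic system of rank at least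
  two; with a filtered root group datum, all simple root groups of order at least three; `²F₄(q)`; of rank one, `k = 1`;
* `own_G` : `Own 2 G` for `G = ²F₄(q)`, from the two remaining cells.
-/

set_option autoImplicit false
set_option linter.unusedSectionVars false

namespace Cfsg.Agent.H424.EPX

open Cfsg.Agent.H284 Cfsg.Agent.H737.EPO Cfsg.Agent.H470.EPO Cfsg.Agent.H209.EPX
open Cfsg.Agent.KFacts.RgdFilt Cfsg.Agent.H284.Pan
open Cfsg.Agent.KFacts.TwF4 Cfsg.Agent.KFacts.TwF4.SylU Cfsg.Agent.ChevalleyStructure.TwF4.TwistedFix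
open Cfsg.Agent.H564.EPF

/-- `G` has, up to isomorphism, a parabolic system with canonical Borel–Tits -/
def HasCan (p : ℕ) (G : Type*) [Group G] : Prop :=
  ∃ (Y : Type) (_ : Group Y) (_ : Finite Y) (I₀ : Type) (S₀ : PSys Y p I₀) (_ : Y ≃* G), CanV S₀

/-- **`²F₄(q)` has a parabolic system with canonical Borel–Tits.** -/
theorem hasCan_TF4 {G : Type*} [Group G] (hG : Cfsg.Lie.Iso2F4 G) : HasCan 2 G := by
  obtain ⟨K, _, _, m, hm, hK, ⟨f⟩⟩ := hG
  have : CharP K 2 := Cfsg.Agent.ChevalleyStructure.TwF4.Twisted.charP_two hK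
  obtain ⟨φ, hφ⟩ := exists_rln hK
  have hfin : Finite (GL Lie.chevF4.Idx K) := inferInstance
  have hfin' : Finite ↥(Lie.twistedF4 K (2 ^ m)) := inferInstance
  have h8 : 8 ≤ Fintype.card K := by
    rw [hK]
    calc 8 = 2 ^ 3 := by norm_num
      _ ≤ 2 ^ (2 * m + 1) := Nat.pow_le_pow_right (by norm_num) (by omega)
  obtain ⟨c, hc0, hc1⟩ : ∃ c : K, c ≠ 0 ∧ c ≠ 1 := by
    classical
    by_contra hcon
    push Not at hcon
    have h3 : (Finset.univ : Finset K) ⊆ {0, 1} := by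
      intro x _
      by_cases hx : x = 0
      · simp [hx]
      · simp [hcon x hx]
    have h4 := (Finset.card_le_card h3).trans (Finset.card_le_two)
    rw [Finset.card_univ] at h4
    omega
  have hF : ∃ c : Kˣ, c ≠ 1 := ⟨Units.mk0 c hc0, fun h => hc1 (by simpa using congrArg Units.val h)⟩
  let S := Cfsg.Agent.KFacts.TwF4.Inst.full hK hφ
  obtain ⟨P, hP⟩ := exists_sylow S hF rfl
  let D : OD ↥(Lie.twistedF4 K (2 ^ m)) := ofFull S (opp hK hφ)
  have hU : D.U = (P : Subgroup ↥(Lie.twistedF4 K (2 ^ m))) := hP.symm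
  have h2 : IsPGroup 2 D.U := by rw [hU]; exact P.isPGroup'
  have hs : ∀ R : Subgroup ↥(Lie.twistedF4 K (2 ^ m)), D.U ≤ R → IsPGroup 2 R → R = D.U := by
    intro R hR hR2
    rw [hU] at hR ⊢
    exact P.is_maximal' hR2 hR
  have hfact : Fact (Nat.Prime 2) := ⟨Nat.prime_two⟩
  refine ⟨↥(Lie.twistedF4 K (2 ^ m)), inferInstance, hfin', Fin 2, D.psys h2 hs, f.symm, canV_of_bt _ fun Q hQ hQ1 => ?_⟩
  obtain ⟨g₀, h₀⟩ := OD.exists_le_cj h2 hs hQ
  exact OD.bt hQ1 h₀

section EPS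

variable {G : Type*} [Group G] [Finite G] {p : ℕ} [Fact p.Prime] (hG : HasCan p G) {H N : Subgroup G} {T : Type}
  [Group T] {k : ℕ} {e : N ≃* (Fin k → T)} (h : EPS H N e)

include hG h

/-- **the `G`-side** -/
theorem HasCan.dq [Finite T] {I : Type*} (S : PSys T p I) (e' : N ≃* (Fin k → T)) (J : Fin k → Set I)
    (hJ : VV e' S J ≠ ⊥) : DQ H e' S J := by
  obtain ⟨Y, _, _, I₀, S₀, f, hcan⟩ := hG
  have hr : (f : Y →* G).range = ⊤ := MonoidHom.range_eq_top.2 f.surjective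
  exact dq_ps S₀ hcan h (j := (f : Y →* G)) f.injective (by rw [hr]; infer_instance) (by rw [hr]; exact le_top)
    S e' J hJ

/-- any parabolic system of rank at least two -/
theorem HasCan.own_ps [Finite T] {I : Type*} [Nontrivial I] {S : PSys T p I} (hS : Rk S) :
    p = 2 ∧ ∃ i, (S.V {i}).relIndex (S.V ∅) = 2 := by
  have := h.simple
  obtain ⟨P, -, hP⟩ := exists_sylIn (p := p) (H := H) (K := ⊥) bot_le IsPGroup.of_bot
  obtain ⟨e', hPN⟩ := exists_std S e h.nrm h.le hP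
  exact own_R e' h.nab hS h.ep h.toMinN h.pos hP hPN (fun J hJ => hG.dq h S e' J hJ)

/-- a filtered root group datum of rank at least two, all simple root groups of order at least three -/
theorem HasCan.own_filtC [Finite T] {l : ℕ} {M : CoxeterMatrix (Fin l)} (hl : 2 ≤ l) (hF : FiltC p 3 M T) : False := by
  have := h.simple
  obtain ⟨A, hC, Tt, n, X, R, F, hW, hX, hF, hc⟩ := hF
  have : Nontrivial (Fin l) := Fin.nontrivial_iff_two_le.2 hl
  have hGG := GG_eq_top (T := Tt) hX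
  have hBT : KFacts.RgdCharP.BT M.toCoxeterSystem hC p Tt X := fun K hK h1 => borel_tits_of_filt hF hX hK h1
  have hconn := KFacts.RgdLieCharP.conn_of_simple R hX (KFacts.RgdLieCharP.center_eq_bot h.nab)
  have hX' : Nodes.BNOf.RGD.Sup X {x | Tits.Roots.IsRoot M.toCoxeterSystem hC x} = ⊤ := hX
  obtain ⟨-, i, h2⟩ := hG.own_ps h (rk_ofRGD R hBT hGG hX' hconn)
  rw [relIndex_ofRGD] at h2
  have := hc i
  omega

/-- rank one, `k = 1` -/
theorem HasCan.own_r1 [IsSimpleGroup G] {N : Subgroup G} {e : N ≃* (Fin 1 → T)} (h : EPS H N e) [Finite T]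
    (D : R1 p T) (hD : D.Hyp) : False := by
  have := h.simple
  refine r1_false e D h.nab h.ep h.toMinN h.cent hD
    (hG.dq h D.psys e (fun _ => ∅) (VV_ne_bot e (i := 0) Set.empty_ne_univ)) fun A hA hab => ?_
  rcases hA.eq_bot_or_eq_top with h2 | h2
  · exact h2
  · exfalso
    obtain ⟨a, b, hab'⟩ := h.nab
    apply hab'
    have h3 : ∀ x y : G, x * y = y * x := fun x y => hab x (by rw [h2]; trivial) y (by rw [h2]; trivial)
    have h4 : e.symm (fun _ => a) * e.symm (fun _ => b) = e.symm (fun _ => b) * e.symm (fun _ => a) :=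
      Subtype.ext (h3 _ _)
    rw [← map_mul, ← map_mul] at h4
    exact congrFun (e.symm.injective h4) 0

end EPS

theorem finite_of_eps {G : Type*} [Group G] [Finite G] {H N : Subgroup G} {T : Type} [Group T] {k : ℕ}
    {e : N ≃* (Fin k → T)} (h : EPS H N e) : Finite T := by
  have : Nonempty (Fin k) := ⟨⟨0, h.pos⟩⟩
  have h1 : Finite (Fin k → T) := Finite.of_equiv N e.toEquiv
  exact Finite.of_surjective (fun f : Fin k → T => f ⟨0, h.pos⟩) fun t => ⟨fun _ => t, rfl⟩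

/-- **socle `²F₄(q) ^ k`** -/
theorem HasCan.own_TF4 {G : Type*} [Group G] [Finite G] (hG : HasCan 2 G) {H N : Subgroup G} {T : Type}
    [Group T] {k : ℕ} {e : N ≃* (Fin k → T)} (h : EPS H N e) (hT : Cfsg.Lie.Iso2F4 T) : False := by
  have hfact : Fact (Nat.Prime 2) := ⟨Nat.prime_two⟩
  obtain ⟨K, _, _, m, hm, hK, ⟨f⟩⟩ := hT
  have hfin := finite_of_eps h
  have hfin' : Finite ↥(Lie.twistedF4 K (2 ^ m)) := Finite.of_equiv _ f.toEquiv
  obtain ⟨S, hS, h2⟩ := exists_psys (K := K) hm hK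
  obtain ⟨-, i, hi⟩ := hG.own_ps (eps_congr h f) hS
  exact h2 i hi

/-- **`G = ²F₄(q)`: own characteristic from the two remaining cells** -/
theorem own_G {G : Type} [Group G] [Finite G] [IsSimpleGroup G] (hG : HasCan 2 G)
    (h2 : Cfsg.Agent.H542.EPX.OwnQ2 G) (h1 : Cfsg.Agent.H542.EPX.OwnR1 2 G) : Cfsg.Agent.H542.EPX.Own 2 G := by
  intro H N T _ k e h hT
  have hfact : Fact (Nat.Prime 2) := ⟨Nat.prime_two⟩
  have hfin := finite_of_eps h
  rcases Cfsg.Agent.H542.EPX.own_cases hT with ⟨l, M, hl, hF⟩ | ⟨-, h3⟩ | h3 | ⟨-, h3⟩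
  · exact hG.own_filtC h hl hF
  · exact h2 H N T k e h h3
  · exact h1 H N T k e h h3
  · exact hG.own_TF4 h h3

end Cfsg.Agent.H424.EPX
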