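import Cfsg.Agent.H424.EPX.Base
import Cfsg.Agent.H737.EPO.PSys

/-!
# The parabolic subgroups of `²F₄(q)` (helper424, for S5745, own characteristic)

`Pp none = U T`, `Pp true = N(J 2 8)`, `Pp false = N(J 1 7)`; `Vv none = U`, `Vv true = J 2 8`, `Vv false = J 1 7`.
-/

set_option autoImplicit false
set_option linter.unusedSectionVars false

namespace Cfsg.Agent.H424.EPX

open Cfsg.Agent.KFacts.TwF4 Cfsg.Agent.KFacts.TwF4.Full Cfsg.Agent.KFacts.TwF4.Arc
open Cfsg.Agent.KFacts.TwF4.Inv Cfsg.Agent.KFacts.TwF4.SylU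
open Cfsg.Agent.SplitTwo Cfsg.Agent.SplitTwo.ZS Cfsg.Agent.TitsThree.RankTwoZ
open Cfsg.Agent.SplitTwo.RootSysZ Subgroup Cfsg Cfsg.Agent.H248.TwF4Over
open Cfsg.Agent.H284

universe u

variable {F : Type*} [Field F] {σ : F →+* F} {G : Type u} [Group G] (S : Full σ G)

/-- the parabolic subgroups of proper type -/
def Pp : Option Bool → Subgroup G
  | none => J S.XZ 1 8 ⊔ S.T
  | some true => normalizer (J S.XZ 2 8 : Set G)
  | some false => normalizer (J S.XZ 1 7 : Set G)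

/-- their unipotent radicals -/
def Vv : Option Bool → Subgroup G
  | none => J S.XZ 1 8
  | some true => J S.XZ 2 8
  | some false => J S.XZ 1 7

/-- the root groups in `Pp` -/
def arcP : Option Bool → Finset (ZMod (2 * 8))
  | none => {1, 2, 3, 4, 5, 6, 7, 8}
  | some true => {1, 2, 3, 4, 5, 6, 7, 8, 9}
  | some false => {0, 1, 2, 3, 4, 5, 6, 7, 8}

/-- the root groups in `Vv` -/
def arcV : Option Bool → Finset (ZMod (2 * 8))
  | none => {1, 2, 3, 4, 5, 6, 7, 8}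
  | some true => {2, 3, 4, 5, 6, 7, 8}
  | some false => {1, 2, 3, 4, 5, 6, 7}

theorem Vv_le_U (o : Option Bool) : Vv S o ≤ J S.XZ 1 8 := by
  rcases o with _ | _ | _
  · exact le_rfl
  · exact J_mono le_rfl (by norm_num)
  · exact J_mono (by norm_num) le_rfl

theorem conj_Vv (o : Option Bool) {b : G} (hb : b ∈ J S.XZ 1 8) {x : G} (hx : x ∈ Vv S o) : b * x * b⁻¹ ∈ Vv S o := by
  have Z := S.zsys8
  rcases o with _ | _ | _
  · exact mul_mem (mul_mem hb hx) (inv_mem hb)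
  · exact Z.conj_J (a := 1) (b := 7) (c := 1) (d := 8) (by norm_num) (by norm_num) (by norm_num) hb hx
  · exact Z.conj_J (a := 2) (b := 8) (c := 1) (d := 8) (by norm_num) (by norm_num) (by norm_num) hb hx

theorem T_conj_Vv (o : Option Bool) {t : G} (ht : t ∈ S.T) {x : G} (hx : x ∈ Vv S o) : t * x * t⁻¹ ∈ Vv S o := by
  rcases o with _ | _ | _
  · exact S.T_conj_J ht hx
  · exact S.T_conj_J ht hx
  · exact S.T_conj_J ht hx

section fin

variable [Finite G]

theorem mem_norm_of {A : Subgroup G} {g : G} (h : ∀ x ∈ A, g * x * g⁻¹ ∈ A) : g ∈ normalizer (A : Set G) := by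
  rw [Subgroup.mem_normalizer_iff_map_conj_eq]
  apply Subgroup.eq_of_le_of_card_ge
  · rintro _ ⟨x, hx, rfl⟩
    exact h x hx
  · exact (card_cj g A).ge

theorem U_le_Pp (o : Option Bool) : J S.XZ 1 8 ≤ Pp S o := by
  rcases o with _ | _ | _
  · exact le_sup_left
  · exact fun b hb => mem_norm_of fun x hx => conj_Vv S (some false) hb hx
  · exact fun b hb => mem_norm_of fun x hx => conj_Vv S (some true) hb hx

theorem T_le_Pp (o : Option Bool) : S.T ≤ Pp S o := by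
  rcases o with _ | _ | _
  · exact le_sup_right
  · exact fun b hb => mem_norm_of fun x hx => T_conj_Vv S (some false) hb hx
  · exact fun b hb => mem_norm_of fun x hx => T_conj_Vv S (some true) hb hx

theorem B_le_Pp (o : Option Bool) : Pp S none ≤ Pp S o := sup_le (U_le_Pp S o) (T_le_Pp S o)

theorem Vv_le_Pp (o : Option Bool) : Vv S o ≤ Pp S o := (Vv_le_U S o).trans (U_le_Pp S o)

theorem n1_mem_P : S.n1 ∈ Pp S (some true) := mem_norm_of fun x hx => S.n1_refl.mem_J hx (by norm_num) (by norm_num)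

theorem n2_mem_P : S.n2 ∈ Pp S (some false) := mem_norm_of fun x hx => S.n2_refl.mem_J hx (by norm_num) (by norm_num)

theorem Pp_le_norm (o : Option Bool) : Pp S o ≤ normalizer (Vv S o : Set G) := by
  rcases o with _ | _ | _
  · exact sup_le (fun b hb => mem_norm_of fun x hx => conj_Vv S none hb hx)
      (fun b hb => mem_norm_of fun x hx => T_conj_Vv S none hb hx)
  · exact le_rfl
  · exact le_rfl

theorem Pp_ne_top (o : Option Bool) : Pp S o ≠ ⊤ := by
  have h1 : Pp S (some true) ≠ ⊤ := by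
    intro h
    have h2 : S.n2 ∈ normalizer (J S.XZ 2 8 : Set G) := by
      have : S.n2 ∈ Pp S (some true) := by rw [h]; exact mem_top _
      exact this
    refine J_ne_bot S (a := 2) (b := 8) (by norm_num) (H371.PU.bot_of_inv S (J_mono (by norm_num) le_rfl) ?_ ?_)
    · exact fun x hx => (mem_normalizer_iff.1 (n1_mem_P S) x).1 hx
    · exact fun x hx => (mem_normalizer_iff.1 h2 x).1 hx
  have h2 : Pp S (some false) ≠ ⊤ := by
    intro h
    have h2 : S.n1 ∈ normalizer (J S.XZ 1 7 : Set G) := by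
      have : S.n1 ∈ Pp S (some false) := by rw [h]; exact mem_top _
      exact this
    refine J_ne_bot S (a := 1) (b := 7) (by norm_num) (H371.PU.bot_of_inv S (J_mono le_rfl (by norm_num)) ?_ ?_)
    · exact fun x hx => (mem_normalizer_iff.1 h2 x).1 hx
    · exact fun x hx => (mem_normalizer_iff.1 (n2_mem_P S) x).1 hx
  rcases o with _ | _ | _
  · exact fun h => h1 (top_le_iff.1 (h ▸ B_le_Pp S (some true)))
  · exact h2
  · exact h1

theorem X9_le : S.R.X 9 ≤ Pp S (some true) := by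
  have h1 : S.R.X 1 ≤ Pp S (some true) := (X_le_U S (i := 1) (by decide) (by decide)).trans (U_le_Pp S _)
  exact conj_le S (n1_mem_P S) S.n1_maps h1

theorem X0_le : S.R.X 0 ≤ Pp S (some false) := by
  have h1 : S.R.X 8 ≤ Pp S (some false) := (X_le_U S (i := 8) (by decide) (by decide)).trans (U_le_Pp S _)
  have := conj_le S (n2_mem_P S) S.n2_maps h1
  rwa [sub_self] at this

theorem not_X0 : ¬ S.R.X 0 ≤ Pp S (some true) := fun h =>
  not_both S (U_le_Pp S _) (Pp_ne_top S _) (X9_le S) h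

theorem not_X9 : ¬ S.R.X 9 ≤ Pp S (some false) := fun h =>
  not_both S (U_le_Pp S _) (Pp_ne_top S _) h (X0_le S)

theorem mem_arcP {o : Option Bool} {i : ZMod (2 * 8)} (hi : S.R.X i ≤ Pp S o) : i ∈ arcP o := by
  have h1 := arc_of_le S (U_le_Pp S o) (Pp_ne_top S o) hi
  have hc : ∀ i : ZMod (2 * 8), i.val ≤ 9 → i = 0 ∨ i = 9 ∨ (i ∈ arcP none ∧ i ∈ arcP (some true) ∧ i ∈ arcP (some false)) := by
    decide
  rcases hc i h1 with rfl | rfl | ⟨h2, h3, h4⟩
  · rcases o with _ | _ | _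
    · exact absurd (hi.trans (B_le_Pp S (some true))) (not_X0 S)
    · decide
    · exact absurd hi (not_X0 S)
  · rcases o with _ | _ | _
    · exact absurd (hi.trans (B_le_Pp S (some false))) (not_X9 S)
    · exact absurd hi (not_X9 S)
    · decide
  · rcases o with _ | _ | _
    · exact h2
    · exact h4
    · exact h3

theorem X_le_Vv {o : Option Bool} {i : ZMod (2 * 8)} (hi : i ∈ arcV o) : S.R.X i ≤ Vv S o := by
  have h1 : ∀ i : ZMod (2 * 8), i ∈ arcV none → 1 ≤ i.val ∧ i.val ≤ 8 := by decide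
  have h2 : ∀ i : ZMod (2 * 8), i ∈ arcV (some false) → 1 ≤ i.val ∧ i.val ≤ 7 := by decide
  have h3 : ∀ i : ZMod (2 * 8), i ∈ arcV (some true) → 2 ≤ i.val ∧ i.val ≤ 8 := by decide
  have hv : (((i.val : ℕ) : ℤ) : ZMod (2 * 8)) = i := by rw [Int.cast_natCast]; exact ZMod.natCast_zmod_val _
  rcases o with _ | _ | _
  · obtain ⟨a, b⟩ := h1 i hi
    exact X_le_J' S (i.val : ℤ) hv (by omega) (by omega)
  · obtain ⟨a, b⟩ := h2 i hi
    exact X_le_J' S (i.val : ℤ) hv (by omega) (by omega)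
  · obtain ⟨a, b⟩ := h3 i hi
    exact X_le_J' S (i.val : ℤ) hv (by omega) (by omega)

end fin

/-! ### elements of the normaliser of the torus -/

theorem n1_inv' : S.n1⁻¹ = S.n1 := inv_eq_of_mul_eq_one_left S.n1_sq
theorem n2_inv' : S.n2⁻¹ = S.n2 := inv_eq_of_mul_eq_one_left S.n2_sq

theorem mem_T_of_maps {n : G} (h : Maps S.R.X n (fun k => k)) : n ∈ S.T := S.T_iff.2 (h.congr fun _ => rfl)

theorem eq_n1 {n : G} (h : Maps S.R.X n (fun k => 10 - k)) : ∃ t ∈ S.T, n = t * S.n1 := by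
  refine ⟨n * S.n1, mem_T_of_maps S ((h.mul S.n1_maps).congr fun k => ?_), ?_⟩
  · show 10 - (10 - k) = k
    ring
  · rw [mul_assoc, S.n1_sq, mul_one]

theorem eq_n2 {n : G} (h : Maps S.R.X n (fun k => 8 - k)) : ∃ t ∈ S.T, n = t * S.n2 := by
  refine ⟨n * S.n2, mem_T_of_maps S ((h.mul S.n2_maps).congr fun k => ?_), ?_⟩
  · show 8 - (8 - k) = k
    ring
  · rw [mul_assoc, S.n2_sq, mul_one]

theorem eq_n1' {n : G} (h : Maps S.R.X n (fun k => 10 - k)) : ∃ t ∈ S.T, n = S.n1 * t := by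
  refine ⟨S.n1 * n, mem_T_of_maps S ((S.n1_maps.mul h).congr fun k => ?_), ?_⟩
  · show 10 - (10 - k) = k
    ring
  · rw [← mul_assoc, S.n1_sq, one_mul]

theorem eq_n2' {n : G} (h : Maps S.R.X n (fun k => 8 - k)) : ∃ t ∈ S.T, n = S.n2 * t := by
  refine ⟨S.n2 * n, mem_T_of_maps S ((S.n2_maps.mul h).congr fun k => ?_), ?_⟩
  · show 8 - (8 - k) = k
    ring
  · rw [← mul_assoc, S.n2_sq, one_mul]

theorem eq_n12 {n : G} (h : Maps S.R.X n (fun k => 2 + k)) : ∃ t ∈ S.T, n = t * S.n1 * S.n2 := by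
  have h1 : Maps S.R.X (n * S.n2) (fun k => 10 - k) := (h.mul S.n2_maps).congr fun k => by
    show 2 + (8 - k) = 10 - k
    have : ∀ k : ZMod (2 * 8), 2 + (8 - k) = 10 - k := by decide
    exact this k
  obtain ⟨t, ht, h2⟩ := eq_n1 S h1
  refine ⟨t, ht, ?_⟩
  rw [← h2, mul_assoc, S.n2_sq, mul_one]

theorem eq_n21 {n : G} (h : Maps S.R.X n (fun k => 14 + k)) : ∃ t ∈ S.T, n = t * S.n2 * S.n1 := by
  have h1 : Maps S.R.X (n * S.n1) (fun k => 8 - k) := (h.mul S.n1_maps).congr fun k => by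
    show 14 + (10 - k) = 8 - k
    have : ∀ k : ZMod (2 * 8), 14 + (10 - k) = 8 - k := by decide
    exact this k
  obtain ⟨t, ht, h2⟩ := eq_n2 S h1
  refine ⟨t, ht, ?_⟩
  rw [← h2, mul_assoc, S.n1_sq, mul_one]

section fin2

variable [Finite G]

/-- the elements of `N(J 2 8)` -/
theorem form_true {g : G} (hg : g ∈ Pp S (some true)) (hgB : g ∉ Pp S none) :
    ∃ u ∈ J S.XZ 1 8, ∃ b ∈ Pp S none, g = u * S.n1 * b := by
  obtain ⟨b, hb, n, ⟨c, -, hc⟩, b', hb', rfl⟩ := bru S g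
  rcases types' S (U_le_Pp S (some true)) (Pp_ne_top S _) hb hb' ⟨c, hc⟩ hg with h | ⟨h, -⟩ | ⟨-, h⟩
  · exact absurd (mul_mem (mul_mem (U_le_Pp S none hb) (T_le_Pp S none (mem_T_of_maps S h))) (U_le_Pp S none hb')) hgB
  · obtain ⟨t, ht, rfl⟩ := eq_n1' S h
    exact ⟨b, hb, t * b', mul_mem (T_le_Pp S none ht) (U_le_Pp S none hb'), by group⟩
  · exact absurd h (not_X0 S)

/-- the elements of `N(J 1 7)` -/
theorem form_false {g : G} (hg : g ∈ Pp S (some false)) (hgB : g ∉ Pp S none) :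
    ∃ u ∈ J S.XZ 1 8, ∃ b ∈ Pp S none, g = u * S.n2 * b := by
  obtain ⟨b, hb, n, ⟨c, -, hc⟩, b', hb', rfl⟩ := bru S g
  rcases types' S (U_le_Pp S (some false)) (Pp_ne_top S _) hb hb' ⟨c, hc⟩ hg with h | ⟨-, h⟩ | ⟨h, -⟩
  · exact absurd (mul_mem (mul_mem (U_le_Pp S none hb) (T_le_Pp S none (mem_T_of_maps S h))) (U_le_Pp S none hb')) hgB
  · exact absurd h (not_X9 S)
  · obtain ⟨t, ht, rfl⟩ := eq_n2' S h
    exact ⟨b, hb, t * b', mul_mem (T_le_Pp S none ht) (U_le_Pp S none hb'), by group⟩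

/-- **overgroups of `B`** -/
theorem overB {L : Subgroup G} (hL : Pp S none ≤ L) : L = ⊤ ∨ ∃ o, L = Pp S o := by
  have hU : J S.XZ 1 8 ≤ L := (U_le_Pp S none).trans hL
  rcases overgroup (cond_top S) (M := L) (by rwa [inf_top_eq]) with h | h | h
  · exact Or.inl (top_le_iff.1 h)
  · right
    by_cases h1 : L ≤ Pp S none
    · exact ⟨none, le_antisymm h1 hL⟩
    obtain ⟨g, hg, hgB⟩ := SetLike.not_le_iff_exists.1 h1
    obtain ⟨u, hu, b, hb, rfl⟩ := form_true S (h hg) hgB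
    have hn : S.n1 ∈ L := by
      have e : S.n1 = u⁻¹ * (u * S.n1 * b) * b⁻¹ := by group
      rw [e]
      exact mul_mem (mul_mem (inv_mem (hU hu)) hg) (inv_mem (hL hb))
    refine ⟨some true, le_antisymm h fun x hx => ?_⟩
    by_cases hxB : x ∈ Pp S none
    · exact hL hxB
    · obtain ⟨v, hv, c, hc, rfl⟩ := form_true S hx hxB
      exact mul_mem (mul_mem (hU hv) hn) (hL hc)
  · right
    by_cases h1 : L ≤ Pp S none
    · exact ⟨none, le_antisymm h1 hL⟩
    obtain ⟨g, hg, hgB⟩ := SetLike.not_le_iff_exists.1 h1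
    obtain ⟨u, hu, b, hb, rfl⟩ := form_false S (h hg) hgB
    have hn : S.n2 ∈ L := by
      have e : S.n2 = u⁻¹ * (u * S.n2 * b) * b⁻¹ := by group
      rw [e]
      exact mul_mem (mul_mem (inv_mem (hU hu)) hg) (inv_mem (hL hb))
    refine ⟨some false, le_antisymm h fun x hx => ?_⟩
    by_cases hxB : x ∈ Pp S none
    · exact hL hxB
    · obtain ⟨v, hv, c, hc, rfl⟩ := form_false S hx hxB
      exact mul_mem (mul_mem (hU hv) hn) (hL hc)

theorem tab_rot : ∀ (a b : Option Bool) (c : ZMod (2 * 8)), Ev c → (∀ k ∈ arcV a, k - c ∈ arcP b) →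
    c = 0 ∨ (c = 2 ∧ a = some true ∧ b = some false) ∨ (c = 14 ∧ a = some false ∧ b = some true) := by decide

theorem tab_refl : ∀ (a b : Option Bool) (c : ZMod (2 * 8)), Ev c → (∀ k ∈ arcV a, c - k ∈ arcP b) →
    (c = 10 ∧ (a = some true ∨ b = some true)) ∨ (c = 8 ∧ (a = some false ∨ b = some false)) := by decide

/-- **`V_a ≤ g P_b g⁻¹` gives `g ∈ P_a P_b`** -/
theorem dec_pp {a b : Option Bool} {g : G} (h : Vv S a ≤ cj g (Pp S b)) : ∃ x ∈ Pp S a, ∃ y ∈ Pp S b, g = x * y := by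
  obtain ⟨u, hu, n, ⟨c, hce, hc⟩, u', hu', rfl⟩ := bru S g
  have huP := U_le_Pp S a hu
  have hu'P := U_le_Pp S b hu'
  have hX : ∀ (k j : ZMod (2 * 8)) (f : ZMod (2 * 8) → ZMod (2 * 8)), k ∈ arcV a → Maps S.R.X n f → f j = k → j ∈ arcP b := by
    intro k j f hk hf hj
    apply mem_arcP S
    intro x hx
    have h1 : n * x * n⁻¹ ∈ S.R.X k := by rw [← hj]; exact (hf j x).2 hx
    have h2 : u * (n * x * n⁻¹) * u⁻¹ ∈ Vv S a := conj_Vv S a hu (X_le_Vv S hk h1)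
    have h3 := mem_cj.1 (h h2)
    have e : (u * n * u')⁻¹ * (u * (n * x * n⁻¹) * u⁻¹) * (u * n * u') = u'⁻¹ * x * u' := by group
    rw [e] at h3
    have h4 := mul_mem (mul_mem hu'P h3) (inv_mem hu'P)
    have e2 : u' * (u'⁻¹ * x * u') * u'⁻¹ = x := by group
    rwa [e2] at h4
  suffices hn : ∃ x ∈ Pp S a, ∃ y ∈ Pp S b, n = x * y by
    obtain ⟨x, hx, y, hy, rfl⟩ := hn
    exact ⟨u * x, mul_mem huP hx, y * u', mul_mem hy hu'P, by group⟩
  rcases hc with hc | hc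
  · have h1 := tab_rot a b c hce fun k hk => hX k (k - c) _ hk hc (by ring)
    rcases h1 with rfl | ⟨rfl, rfl, rfl⟩ | ⟨rfl, rfl, rfl⟩
    · refine ⟨n, T_le_Pp S a (mem_T_of_maps S (hc.congr fun k => zero_add k)), 1, one_mem _, (mul_one n).symm⟩
    · obtain ⟨t, ht, rfl⟩ := eq_n12 S hc
      exact ⟨t * S.n1, mul_mem (T_le_Pp S _ ht) (n1_mem_P S), S.n2, n2_mem_P S, rfl⟩
    · obtain ⟨t, ht, rfl⟩ := eq_n21 S hc
      exact ⟨t * S.n2, mul_mem (T_le_Pp S _ ht) (n2_mem_P S), S.n1, n1_mem_P S, rfl⟩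
  · have h1 := tab_refl a b c hce fun k hk => hX k (c - k) _ hk hc (by ring)
    rcases h1 with ⟨rfl, rfl | rfl⟩ | ⟨rfl, rfl | rfl⟩
    · obtain ⟨t, ht, rfl⟩ := eq_n1 S hc
      exact ⟨t * S.n1, mul_mem (T_le_Pp S _ ht) (n1_mem_P S), 1, one_mem _, (mul_one _).symm⟩
    · obtain ⟨t, ht, rfl⟩ := eq_n1 S hc
      exact ⟨t, T_le_Pp S _ ht, S.n1, n1_mem_P S, rfl⟩
    · obtain ⟨t, ht, rfl⟩ := eq_n2 S hc
      exact ⟨t * S.n2, mul_mem (T_le_Pp S _ ht) (n2_mem_P S), 1, one_mem _, (mul_one _).symm⟩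
    · obtain ⟨t, ht, rfl⟩ := eq_n2 S hc
      exact ⟨t, T_le_Pp S _ ht, S.n2, n2_mem_P S, rfl⟩

/-- the radical is unique: `V_a ≤ g B g⁻¹` gives `g P_a g⁻¹ = P_a` -/
theorem cj_of_le {a : Option Bool} {x g : G} (h : cj x (Vv S a) ≤ cj g (Pp S none)) : cj x (Pp S a) = cj g (Pp S a) := by
  have h1 : Vv S a ≤ cj (x⁻¹ * g) (Pp S none) := by
    rw [cj_mul]
    have := cj_mono (x := x⁻¹) h
    rwa [cj_inv_cj] at this
  obtain ⟨y, hy, z, hz, e⟩ := dec_pp S h1
  have h2 : x⁻¹ * g ∈ Pp S a := by rw [e]; exact mul_mem hy (B_le_Pp S a hz)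
  have e2 : g = x * (x⁻¹ * g) := by group
  rw [e2, cj_mul, cj_eq_self h2]

end fin2

end Cfsg.Agent.H424.EPX
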