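import Cfsg.Agent.H424.EPX.Canon
import Cfsg.Agent.H737.EPO.Res

/-!
# The parabolic system of `²F₄(q)` (helper424, for S5745, own characteristic)

* `psys` : `PSys G 2 Bool` for `S : Full σ G`;
* `rk_psys` : `Rk`, from the two forms of `desc`;
* `relIndex_psys` : `|U : V_j| ≠ 2`.
-/

set_option autoImplicit false
set_option linter.unusedSectionVars false

namespace Cfsg.Agent.H424.EPX

open Cfsg.Agent.KFacts.TwF4 Cfsg.Agent.KFacts.TwF4.Full Cfsg.Agent.KFacts.TwF4.Arc
open Cfsg.Agent.KFacts.TwF4.Inv Cfsg.Agent.KFacts.TwF4.SylU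
open Cfsg.Agent.SplitTwo Cfsg.Agent.SplitTwo.ZS Cfsg.Agent.TitsThree.RankTwoZ
open Cfsg.Agent.SplitTwo.RootSysZ Subgroup Cfsg Cfsg.Agent.H248.TwF4Over
open Cfsg.Agent.H284 Cfsg.Agent.H737.EPO

universe u

variable {F : Type*} [Field F] {σ : F →+* F} {G : Type u} [Group G] (S : Full σ G)

/-- the proper types -/
def st : Option Bool → Set Bool
  | none => ∅
  | some b => {b}

open Classical in
/-- the parabolic subgroup of type `J` -/
noncomputable def PT (J : Set Bool) : Subgroup G :=
  if true ∈ J then (if false ∈ J then ⊤ else Pp S (some true)) else (if false ∈ J then Pp S (some false) else Pp S none)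

open Classical in
/-- its radical -/
noncomputable def VT (J : Set Bool) : Subgroup G :=
  if true ∈ J then (if false ∈ J then ⊥ else Vv S (some true)) else (if false ∈ J then Vv S (some false) else Vv S none)

theorem PT_st (o : Option Bool) : PT S (st o) = Pp S o := by
  rcases o with _ | _ | _ <;> simp [PT, st]

theorem VT_st (o : Option Bool) : VT S (st o) = Vv S o := by
  rcases o with _ | _ | _ <;> simp [VT, st]

theorem PT_univ : PT S Set.univ = ⊤ := by simp [PT]
theorem VT_univ : VT S Set.univ = ⊥ := by simp [VT]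

theorem cases_set (J : Set Bool) : J = Set.univ ∨ ∃ o, J = st o := by
  by_cases h1 : true ∈ J
  · by_cases h2 : false ∈ J
    · left
      ext b
      cases b <;> simp [h1, h2]
    · right
      refine ⟨some true, ?_⟩
      ext b
      cases b <;> simp [h1, h2, st]
  · by_cases h2 : false ∈ J
    · right
      refine ⟨some false, ?_⟩
      ext b
      cases b <;> simp [h1, h2, st]
    · right
      refine ⟨none, ?_⟩
      ext b
      cases b <;> simp [h1, h2, st]

theorem st_ne (o : Option Bool) : st o ≠ Set.univ := by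
  rcases o with _ | b
  · exact Set.empty_ne_univ
  · intro h
    have : (!b) ∈ st (some b) := by rw [h]; trivial
    cases b <;> simp [st] at this

theorem st_subset {o o' : Option Bool} : st o ⊆ st o' ↔ o = none ∨ o = o' := by
  rcases o with _ | b
  · simp [st]
  · rcases o' with _ | b'
    · simp [st]
    · simp [st]

section fin

variable [Finite G]

theorem arc_mono {o o' : Option Bool} (h : Pp S o ≤ Pp S o') : arcP o ⊆ arcP o' := by
  intro i hi
  apply mem_arcP S
  refine le_trans ?_ h
  have hc : ∀ i : ZMod (2 * 8), ∀ o, i ∈ arcP o → (1 ≤ i.val ∧ i.val ≤ 8) ∨ (i = 9 ∧ o = some true) ∨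
      (i = 0 ∧ o = some false) := by decide
  rcases hc i o hi with ⟨h1, h2⟩ | ⟨rfl, rfl⟩ | ⟨rfl, rfl⟩
  · exact (X_le_U S h1 h2).trans (U_le_Pp S o)
  · exact X9_le S
  · exact X0_le S

theorem PT_le_iff {J L : Set Bool} : PT S J ≤ PT S L ↔ J ⊆ L := by
  rcases cases_set L with rfl | ⟨o', rfl⟩
  · rw [PT_univ]
    exact ⟨fun _ => Set.subset_univ _, fun _ => le_top⟩
  · rcases cases_set J with rfl | ⟨o, rfl⟩
    · rw [PT_univ, PT_st]
      constructor
      · intro h
        exact absurd (top_le_iff.1 h) (Pp_ne_top S o')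
      · intro h
        exact absurd (Set.univ_subset_iff.1 h) (st_ne o')
    · rw [PT_st, PT_st, st_subset]
      constructor
      · intro h
        have hc : ∀ o o' : Option Bool, arcP o ⊆ arcP o' → o = none ∨ o = o' := by decide
        exact hc _ _ (arc_mono S h)
      · rintro (rfl | rfl)
        · exact B_le_Pp S _
        · exact le_rfl

theorem dec_T {J L : Set Bool} {g : G} (h : VT S J ≤ cj g (PT S L)) : ∃ a ∈ PT S J, ∃ b ∈ PT S L, g = a * b := by
  rcases cases_set J with rfl | ⟨o, rfl⟩
  · rw [PT_univ]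
    exact ⟨g, mem_top _, 1, one_mem _, (mul_one g).symm⟩
  · rcases cases_set L with rfl | ⟨o', rfl⟩
    · rw [PT_univ]
      exact ⟨1, one_mem _, g, mem_top _, (one_mul g).symm⟩
    · rw [PT_st] at h ⊢
      rw [PT_st]
      rw [VT_st] at h
      exact dec_pp S h

end fin

section sys

variable [Finite F] [Finite G] (hF : ∃ c : Fˣ, c ≠ 1) (hR : S.R.p = 2)

/-- **the parabolic system of `²F₄(q)`** -/
noncomputable def psys : PSys G 2 Bool where
  P := PT S
  V := VT S
  P_univ := PT_univ S
  P_le_iff := PT_le_iff S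
  ov L hL := by
    have h1 : Pp S none ≤ L := by
      have e : PT S (∅ : Set Bool) = Pp S none := PT_st S none
      rwa [e] at hL
    rcases overB S h1 with h | ⟨o, h⟩
    · exact ⟨Set.univ, by rw [PT_univ, h]⟩
    · exact ⟨st o, by rw [PT_st, h]⟩
  V_anti {J L} h := by
    rcases cases_set L with rfl | ⟨o', rfl⟩
    · rw [VT_univ]; exact bot_le
    · rcases cases_set J with rfl | ⟨o, rfl⟩
      · exact absurd (Set.univ_subset_iff.1 h) (st_ne o')
      · rw [VT_st, VT_st]
        rcases st_subset.1 h with rfl | rfl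
        · exact Vv_le_U S _
        · exact le_rfl
  V_le J := by
    rcases cases_set J with rfl | ⟨o, rfl⟩
    · rw [PT_univ]; exact le_top
    · rw [VT_st, PT_st]; exact Vv_le_Pp S o
  V_norm J := by
    rcases cases_set J with rfl | ⟨o, rfl⟩
    · rw [PT_univ, VT_univ]
      intro g _
      rw [mem_normalizer_iff]
      intro x
      rw [mem_bot, mem_bot]
      constructor
      · rintro rfl; simp
      · intro h
        have e : x = g⁻¹ * (g * x * g⁻¹) * g := by group
        rw [e, h]; group
    · rw [VT_st, PT_st]; exact Pp_le_norm S o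
  U_norm := by
    have e1 : VT S (∅ : Set Bool) = J S.XZ 1 8 := VT_st S none
    have e2 : PT S (∅ : Set Bool) = Pp S none := PT_st S none
    rw [e1, e2]
    exact norm_U' S hF hR
  U_p := by
    have e1 : VT S (∅ : Set Bool) = J S.XZ 1 8 := VT_st S none
    rw [e1]
    exact U_two S hF hR
  U_max D h1 h2 := by
    have e1 : VT S (∅ : Set Bool) = J S.XZ 1 8 := VT_st S none
    rw [e1] at h1 ⊢
    exact U_max' S hF hR h1 h2
  V_max {J D} _ hD hn := by
    rcases cases_set J with rfl | ⟨o, rfl⟩
    · rw [PT_univ] at hn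
      rw [VT_univ, top_max S hF hR hD fun g => hn g (mem_top _)]
    · rw [PT_st] at hn
      rw [VT_st]
      exact V_max_pp S hF hR hD hn
  dec h := dec_T S h
  canon {K} hK J hJ g hV := by
    rcases cases_set J with rfl | ⟨o, rfl⟩
    · exact absurd rfl hJ
    · rw [VT_st] at hV
      obtain ⟨b, g', h1, h2⟩ := canon_pp S hF hR hK hV
      refine ⟨st b, g', st_ne b, ?_, ?_⟩
      · rw [PT_st]; exact h1
      · rw [PT_st]; exact h2

theorem psys_P (J : Set Bool) : (psys S hF hR).P J = PT S J := rfl
theorem psys_V (J : Set Bool) : (psys S hF hR).V J = VT S J := rfl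

end sys

end Cfsg.Agent.H424.EPX
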